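import Cfsg.Agent.H362.PB84.RhoDef
import Cfsg.Agent.H723.PB.Rho

/-!
# S4884: constructors of `RowP` (helper362)
-/

set_option autoImplicit false

open Subgroup

namespace Cfsg.Agent.H362.PB84

open Cfsg Cfsg.Agent.H706.PB

universe u

theorem RowP.of_row {q : ℕ} {S : Type u} [Group S] (h : H706.PB.Row q S) : RowP q S := Or.inl h

theorem RowP.of_real {q : ℕ} {S : Type u} [Group S] (h : RowReal q S) : RowP q S := Or.inl (Or.inl h)

theorem RowP.of_noOut {q : ℕ} {S : Type u} [Group S] (h : RowB q S) (h' : NoOut 2 S ∨ NoOut q S) : RowP q S :=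
  Or.inl (Or.inr ⟨h, h'⟩)

/-- the definition of helper723 is the same -/
theorem RowP.of_rho {q : ℕ} {S : Type u} [Group S] (h : H723.PB.RowRho q S) : RowP q S := Or.inr h

/-- **cyclic Sylow `q`-subgroups** (helper723) -/
theorem RowP.of_cyclic {q : ℕ} [Fact q.Prime] {S : Type u} [Group S] [Finite S] (hdvd : q ∣ Nat.card S) (Q : Sylow q S)
    (hQ : IsCyclic (Q : Subgroup S)) (A : Subgroup S) (hA : IsPGroup 2 A)
    (hC : ¬ q ∣ Nat.card (centralizer (A : Set S))) : RowP q S :=
  .of_rho (H723.PB.RowRho.of_cyclic hdvd Q hQ A hA hC)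

end Cfsg.Agent.H362.PB84
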